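import Mathlib
import Cfsg.Agent.H942.CB.E8Tor

/-!
# Certificates for lower bounds of centralisers in `E₈(3)`
-/

set_option autoImplicit false
set_option linter.unusedSectionVars false
set_option maxRecDepth 100000

namespace Cfsg.Agent.H942.CB

open CoxeterSystem Cfsg Cfsg.Lie Cfsg.Lie.ChevalleyDatum
open Cfsg.Agent.ChevalleyStructure Cfsg.Agent.ChevalleyStructure.Elts Cfsg.Agent.ChevalleyStructure.CoxeterGeom
  Cfsg.Agent.ChevalleyStructure.CoxeterGeomTypes Cfsg.Agent.ChevalleyStructure.NPerm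
  Cfsg.Agent.ChevalleyStructure.RootVec Cfsg.Agent.ChevalleyStructure.RootVecTab
open Cfsg.Agent.Tits.Roots Cfsg.Agent.Tits.Core Cfsg.Agent.Nodes Cfsg.Agent.Nodes.Reps Cfsg.Agent.Nodes.BNOf
  Cfsg.Agent.Nodes.RGDChev Cfsg.Agent.Nodes.NormalForm
open Cfsg.Agent.GpExc.Field Cfsg.Agent.BpExc.TowChev Cfsg.Agent.H129.TorusChar
open Cfsg.Agent.H942.E8Tab Cfsg.Agent.H942.E8Alc
open Cfsg.Agent.H944.Tab Cfsg.Agent.H944.Kac

/-! ### the Weyl group of `E₈` -/

/-- the Weyl group of `E₈` -/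
abbrev W8 : Type := CoxeterMatrix.E₈.Group

/-- its Coxeter system -/
abbrev cs8 : CoxeterSystem CoxeterMatrix.E₈ W8 := CoxeterMatrix.E₈.toCoxeterSystem

/-- a letter -/
def toF8 (n : ℕ) : Fin 8 := ⟨n % 8, Nat.mod_lt _ (by norm_num)⟩

/-- the element of a word -/
def word (ω : List ℕ) : W8 := cs8.wordProd (ω.map toF8)

theorem word_nil : word [] = 1 := by unfold word; rw [List.map_nil, wordProd_nil]

theorem word_cons (i : ℕ) (ω : List ℕ) : word (i :: ω) = cs8.simple (toF8 i) * word ω := by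
  unfold word; rw [List.map_cons, wordProd_cons]

theorem word_append (ω ω' : List ℕ) : word (ω ++ ω') = word ω * word ω' := by
  unfold word; rw [List.map_append, wordProd_append]

/-! ### functionals -/

/-- the functional of a list -/
def fz (c : List ℤ) (x : Fin 8 → ℤ) : ℤ := ∑ i : Fin 8, c.getD i 0 * x i

theorem fz_add (c : List ℤ) (x y : Fin 8 → ℤ) : fz c (x + y) = fz c x + fz c y := by
  unfold fz
  simp only [Pi.add_apply, mul_add, Finset.sum_add_distrib]

theorem fz_sub (c : List ℤ) (x y : Fin 8 → ℤ) : fz c (x - y) = fz c x - fz c y := by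
  unfold fz
  simp only [Pi.sub_apply, mul_sub, Finset.sum_sub_distrib]

theorem fz_smul (c : List ℤ) (m : ℤ) (x : Fin 8 → ℤ) : fz c (m • x) = m * fz c x := by
  unfold fz
  rw [Finset.mul_sum]
  refine Finset.sum_congr rfl fun i _ => ?_
  rw [Pi.smul_apply, smul_eq_mul]
  ring

theorem fz_sr (c : List ℤ) (i : Fin 8) : fz c (sr i) = c.getD i 0 := by
  unfold fz
  rw [Finset.sum_eq_single i]
  · rw [sr_self, mul_one]
  · intro j _ hj
    rw [sr_ne hj, mul_zero]
  · intro h
    exact absurd (Finset.mem_univ i) h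

/-- the action of a simple reflection on functionals -/
def sL : ℕ → List ℤ → List ℤ
  | 0, [a, b, c, d, e, f, g, h] => [-a, b, c + a, d, e, f, g, h]
  | 1, [a, b, c, d, e, f, g, h] => [a, -b, c, d + b, e, f, g, h]
  | 2, [a, b, c, d, e, f, g, h] => [a + c, b, -c, d + c, e, f, g, h]
  | 3, [a, b, c, d, e, f, g, h] => [a, b + d, c + d, -d, e + d, f, g, h]
  | 4, [a, b, c, d, e, f, g, h] => [a, b, c, d + e, -e, f + e, g, h]
  | 5, [a, b, c, d, e, f, g, h] => [a, b, c, d, e + f, -f, g + f, h]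
  | 6, [a, b, c, d, e, f, g, h] => [a, b, c, d, e, f + g, -g, h + g]
  | 7, [a, b, c, d, e, f, g, h] => [a, b, c, d, e, f, g + h, -h]
  | _, c => c

/-- the Cartan matrix of `E₈` -/
def A8 : Fin 8 → Fin 8 → ℤ := ![![2, 0, -1, 0, 0, 0, 0, 0], ![0, 2, 0, -1, 0, 0, 0, 0], ![-1, 0, 2, -1, 0, 0, 0, 0],
  ![0, -1, -1, 2, -1, 0, 0, 0], ![0, 0, 0, -1, 2, -1, 0, 0], ![0, 0, 0, 0, -1, 2, -1, 0],
  ![0, 0, 0, 0, 0, -1, 2, -1], ![0, 0, 0, 0, 0, 0, -1, 2]]

theorem cartan8 : ∀ i j : Fin 8, cartanOf chevE8 8 i j = A8 i j := by decide +kernel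

theorem exists_eight {c : List ℤ} (hc : c.length = 8) : ∃ a b c' d e f g h : ℤ, c = [a, b, c', d, e, f, g, h] := by
  obtain _ | ⟨a, c⟩ := c
  · simp at hc
  obtain _ | ⟨b, c⟩ := c
  · simp at hc
  obtain _ | ⟨c', c⟩ := c
  · simp at hc
  obtain _ | ⟨d, c⟩ := c
  · simp at hc
  obtain _ | ⟨e, c⟩ := c
  · simp at hc
  obtain _ | ⟨f, c⟩ := c
  · simp at hc
  obtain _ | ⟨g, c⟩ := c
  · simp at hc
  obtain _ | ⟨h, c⟩ := c
  · simp at hc
  obtain _ | ⟨i, c⟩ := c
  · exact ⟨a, b, c', d, e, f, g, h, rfl⟩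
  · simp at hc

theorem sL_length {c : List ℤ} (hc : c.length = 8) {j : ℕ} (hj : j < 8) : (sL j c).length = 8 := by
  obtain ⟨a, b, c', d, e, f, g, h, rfl⟩ := exists_eight hc
  interval_cases j <;> rfl

theorem sL_getD {c : List ℤ} (hc : c.length = 8) {j : ℕ} (hj : j < 8) (i : Fin 8) :
    (sL j c).getD i 0 = c.getD i 0 - cartanOf chevE8 8 (toF8 j) i * c.getD j 0 := by
  obtain ⟨a, b, c', d, e, f, g, h, rfl⟩ := exists_eight hc
  rw [cartan8]
  interval_cases j <;> fin_cases i <;> simp [sL, A8, toF8] <;> ring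

theorem fz_sL {c : List ℤ} (hc : c.length = 8) {j : ℕ} (hj : j < 8) (x : Fin 8 → ℤ) :
    fz (sL j c) x = fz c (rep cs8 e8T.isCartan (cs8.simple (toF8 j)) x) := by
  rw [rep_simple_eq, fz_sub, fz_smul, fz_sr]
  have h1 : ((toF8 j : Fin 8) : ℕ) = j := Nat.mod_eq_of_lt hj
  rw [h1]
  unfold fz pairing
  rw [Finset.sum_mul, ← Finset.sum_sub_distrib]
  refine Finset.sum_congr rfl fun i _ => ?_
  rw [sL_getD hc hj]
  ring

/-- the action of a word on functionals -/
def actW : List ℕ → List ℤ → List ℤ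
  | [], c => c
  | i :: ω, c => actW ω (sL i c)

theorem actW_length : ∀ (ω : List ℕ) (_ : ∀ i ∈ ω, i < 8) {c : List ℤ} (_ : c.length = 8), (actW ω c).length = 8
  | [], _, _, hc => hc
  | i :: ω, h, _, hc => actW_length ω (fun j hj => h j (by simp [hj])) (sL_length hc (h i (by simp)))

theorem fz_actW : ∀ (ω : List ℕ) (_ : ∀ i ∈ ω, i < 8) {c : List ℤ} (_ : c.length = 8) (x : Fin 8 → ℤ),
    fz (actW ω c) x = fz c (rep cs8 e8T.isCartan (word ω) x)
  | [], _, c, _, x => by rw [word_nil, map_one, Module.End.one_apply]; rfl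
  | i :: ω, h, c, hc, x => by
    show fz (actW ω (sL i c)) x = _
    rw [fz_actW ω (fun j hj => h j (by simp [hj])) (sL_length hc (h i (by simp))), fz_sL hc (h i (by simp)),
      word_cons, rep_mul_apply]

theorem fz_ext {c c' : List ℤ} (h : ∀ i : Fin 8, c.getD i 0 = c'.getD i 0) (x : Fin 8 → ℤ) : fz c x = fz c' x := by
  unfold fz
  exact Finset.sum_congr rfl fun i _ => by rw [h]

/-- the height functional -/
def ones : List ℤ := [1, 1, 1, 1, 1, 1, 1, 1]

theorem fz_ones (x : Fin 8 → ℤ) : fz ones x = ht x := by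
  unfold fz ht
  refine Finset.sum_congr rfl fun i _ => ?_
  have : ones.getD i 0 = 1 := by fin_cases i <;> rfl
  rw [this, one_mul]

/-- Elements of the Weyl group are determined by the heights. -/
theorem eq_of_ht {a b : W8} (h : ∀ x, ht (rep cs8 e8T.isCartan a x) = ht (rep cs8 e8T.isCartan b x)) : a = b := by
  have : Finite W8 := finite_W e8T cs8
  have h1 : a * b⁻¹ = 1 := by
    refine eq_one_of_nonneg cs8 e8T.isCartan (a * b⁻¹) fun i => ?_
    have h2 : IsRoot cs8 e8T.isCartan (rep cs8 e8T.isCartan (a * b⁻¹) (sr i)) := ⟨_, i, rfl⟩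
    rcases h2.pos_or_neg with h3 | h3
    · exact h3
    · exfalso
      have h4 : ht (rep cs8 e8T.isCartan (a * b⁻¹) (sr i)) = ht (sr i : Fin 8 → ℤ) := by
        rw [rep_mul_apply, h, rep_apply_inv]
      have h5 := RGD.ht_pos (isRoot_sr cs8 e8T.isCartan i) (sr_nonneg i)
      have h6 := RGD.ht_pos h2.neg (neg_nonneg.2 h3)
      have h7 : ht (-(rep cs8 e8T.isCartan (a * b⁻¹) (sr i))) = - ht (rep cs8 e8T.isCartan (a * b⁻¹) (sr i)) := by
        unfold ht; simp
      omega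
  exact mul_inv_eq_one.1 h1

/-! ### the positive roots -/

/-- the root of a list -/
def toR (r : List ℕ) : Fin 8 → ℤ := fun i => ((r.getD i 0 : ℕ) : ℤ)

theorem mem_pos_iff {a : Fin 8 → ℤ} : a ∈ RGD.Pos cs8 e8T.isCartan ↔ ∃ r ∈ R8, a = toR r := by
  have hT := tab8
  rw [chkTab, decide_eq_true_iff] at hT
  have hv : ∀ s i, vec chevE8 8 s i = ((List.range 8).map fun i => rt chevE8 s i).getD i 0 := by
    intro s i
    rw [vec_apply, List.getD_eq_getElem _ _ (by simp)]
    simp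
  constructor
  · rintro ⟨hr, h0⟩
    obtain ⟨s, hs, rfl⟩ := (isRoot_iff e8T cs8 a).1 hr
    have h1 : ((List.range 8).map fun i => rt chevE8 s i) ∈
        (List.range chevE8.nroots).map (fun s => (List.range 8).map fun i => rt chevE8 s i) :=
      List.mem_map.2 ⟨s, List.mem_range.2 hs, rfl⟩
    rw [hT, List.mem_append] at h1
    rcases h1 with h1 | h1
    · exfalso
      rw [List.mem_map] at h1
      obtain ⟨r, -, hr'⟩ := h1
      have h2 : vec chevE8 8 s = - toR r := by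
        funext i
        rw [hv, ← hr', Pi.neg_apply]
        rw [show (0 : ℤ) = -((0 : ℕ) : ℤ) from rfl, List.getD_map (f := fun a : ℕ => -(a : ℤ))]
        rfl
      have h3 : (0 : Fin 8 → ℤ) ≤ toR r := fun i => Int.natCast_nonneg _
      exact hr.not_pos_neg h0 (by rw [h2]; exact neg_nonpos.2 h3)
    · rw [List.mem_map] at h1
      obtain ⟨r, hrR, hr'⟩ := h1
      refine ⟨r, hrR, ?_⟩
      funext i
      rw [hv, ← hr']
      rw [show (0 : ℤ) = ((0 : ℕ) : ℤ) from rfl, List.getD_map]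
      rfl
  · rintro ⟨r, hr, rfl⟩
    refine ⟨?_, fun i => Int.natCast_nonneg _⟩
    have h1 : (r.map fun a : ℕ => (a : ℤ)) ∈
        (List.range chevE8.nroots).map (fun s => (List.range 8).map fun i => rt chevE8 s i) := by
      rw [hT, List.mem_append]
      exact Or.inr (List.mem_map.2 ⟨r, hr, rfl⟩)
    rw [List.mem_map] at h1
    obtain ⟨s, hs, h2⟩ := h1
    refine (isRoot_iff e8T cs8 _).2 ⟨s, List.mem_range.1 hs, ?_⟩
    funext i
    rw [hv, h2]
    rw [show (0 : ℤ) = ((0 : ℕ) : ℤ) from rfl, List.getD_map]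
    rfl

/-! ### the certificate -/

/-- the data of a certificate -/
structure Cert where
  /-- the twist -/
  w : List ℕ
  /-- elementary divisors of the twisted torus -/
  d : List ℕ
  /-- functionals -/
  U : List (List ℤ)
  /-- dual vectors -/
  f : List (List ℤ)
  /-- elements of the Weyl group of the centraliser -/
  Ws : List (List ℕ)

/-- scalar product -/
def dotZ : List ℕ → List ℤ → ℤ
  | a :: as, b :: bs => (a : ℤ) * b + dotZ as bs
  | _, _ => 0

theorem dotZ_eq (l : ℕ) : ∀ (r : List ℕ) (V : List ℤ), r.length ≤ l →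
    dotZ r V = ∑ i : Fin l, V.getD i 0 * ((r.getD i 0 : ℕ) : ℤ) := by
  induction l with
  | zero =>
    intro r V hr
    have : r = [] := List.length_eq_zero_iff.1 (by omega)
    subst this
    rw [dotZ]
    · simp
    · simp
  | succ n ih =>
    intro r V hr
    rw [Fin.sum_univ_succ]
    cases r with
    | nil => rw [dotZ] <;> simp
    | cons a as =>
      cases V with
      | nil => rw [dotZ] <;> simp
      | cons b bs =>
        rw [dotZ, ih as bs (by simpa using hr)]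
        simp [mul_comm]

theorem dotZ_fz {r : List ℕ} (hr : r ∈ R8) (c : List ℤ) : dotZ r c = fz c (toR r) :=
  dotZ_eq 8 r c (len8 r hr)

/-- scalar product of integer lists -/
def dotI : List ℤ → List ℤ → ℤ
  | a :: as, b :: bs => a * b + dotI as bs
  | _, _ => 0

/-- the positive roots with value 1 -/
def SL (N : ℕ) (Y : List ℕ) : List (List ℕ) := R8.filter fun r => Nat.beq (dotN r Y % N) 0

/-- `Y` as a functional -/
def YZ (Y : List ℕ) : List ℤ := Y.map fun a : ℕ => (a : ℤ)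

/-- the letters of a word -/
def okw (ω : List ℕ) : Bool := ω.all fun i => decide (i < 8)

/-- the vector of a list -/
def toV (c : List ℤ) : Fin 8 → ℤ := fun i => c.getD i 0

/-- the checks -/
def chk (N : ℕ) (Y : List ℕ) (C : Cert) : Bool :=
  decide (Y.length = 8) && okw C.w &&
  ((List.range 8).all fun i => decide (((actW C.w (YZ Y)).getD i 0 - 3 * (YZ Y).getD i 0) % (N : ℤ) = 0)) &&
  ((SL N Y).all fun r => decide (0 < dotZ r (actW C.w ones))) &&
  ((List.range 8).all fun i => decide ((C.U.getD i []).length = 8) && decide (C.d.getD i 0 % 3 ≠ 0) &&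
    ((List.range 8).all fun m => decide (((actW C.w (C.U.getD i [])).getD m 0 - 3 * (C.U.getD i []).getD m 0) %
      ((C.d.getD i 0 : ℕ) : ℤ) = 0)) &&
    ((List.range 8).all fun j => decide (∑ m : Fin 8, (C.U.getD i []).getD m 0 * (C.f.getD j []).getD m 0 =
      if i = j then 1 else 0))) &&
  (C.Ws.all fun ω => okw ω &&
    ((List.range 8).all fun i => decide (((actW ω (YZ Y)).getD i 0 - (YZ Y).getD i 0) % (N : ℤ) = 0)) &&
    decide (actW (ω ++ C.w) ones = actW (C.w ++ ω) ones)) &&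
  decide ((C.Ws.map fun ω => actW ω ones).Nodup)

/-- the bound -/
def bnd (N : ℕ) (Y : List ℕ) (C : Cert) : ℕ :=
  (C.Ws.map fun ω => 3 ^ (SL N Y).length * (∏ i : Fin 8, C.d.getD i 0) *
    3 ^ ((SL N Y).filter fun r => decide (dotZ r (actW ω ones) < 0)).length).sum

theorem nodupR8 : R8.Nodup := by decide +kernel

theorem lenR8 : ∀ r ∈ R8, r.length = 8 := by decide +kernel

theorem toR_inj {r r' : List ℕ} (hr : r ∈ R8) (hr' : r' ∈ R8) (h : toR r = toR r') : r = r' := by
  refine List.ext_getElem (by rw [lenR8 r hr, lenR8 r' hr']) fun i h1 h2 => ?_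
  have h3 : i < 8 := by rw [lenR8 r hr] at h1; exact h1
  have h4 := congrFun h ⟨i, h3⟩
  unfold toR at h4
  simp only [List.getD_eq_getElem _ _ h1, List.getD_eq_getElem _ _ h2] at h4
  exact_mod_cast h4

theorem ncard_image (L : List (List ℕ)) (hL : L.Nodup) (h : ∀ r ∈ L, r ∈ R8) :
    (toR '' {r | r ∈ L}).ncard = L.length := by
  classical
  have h1 : {r | r ∈ L} = (L.toFinset : Set (List ℕ)) := by ext r; simp
  have h2 : Set.InjOn toR {r | r ∈ L} := fun a ha b hb hab => toR_inj (h a ha) (h b hb) hab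
  rw [h2.ncard_image, h1, Set.ncard_coe_finset, List.toFinset_card_of_nodup hL]

theorem fz_dvd {m q : ℤ} {c c' : List ℤ} (h : ∀ i : Fin 8, m ∣ c.getD i 0 - q * c'.getD i 0) (a : Fin 8 → ℤ) :
    m ∣ fz c a - q * fz c' a := by
  unfold fz
  rw [Finset.mul_sum, ← Finset.sum_sub_distrib]
  refine Finset.dvd_sum fun i _ => ?_
  have h1 : c.getD i 0 * a i - q * (c'.getD i 0 * a i) = (c.getD i 0 - q * c'.getD i 0) * a i := by ring
  rw [h1]
  exact Dvd.dvd.mul_right (h i) _

theorem all_range {p : ℕ → Bool} (h : (List.range 8).all p = true) (i : Fin 8) : p i = true := by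
  rw [List.all_eq_true] at h
  exact h i (List.mem_range.2 i.2)

theorem okw_spec {ω : List ℕ} (h : okw ω = true) : ∀ i ∈ ω, i < 8 := by
  intro i hi
  unfold okw at h
  rw [List.all_eq_true] at h
  exact of_decide_eq_true (h i hi)

theorem YZ_getD (Y : List ℕ) (i : ℕ) : (YZ Y).getD i 0 = ((Y.getD i 0 : ℕ) : ℤ) := by
  unfold YZ
  rw [show (0 : ℤ) = ((0 : ℕ) : ℤ) from rfl, List.getD_map]

instance cs8fin : Finite W8 := finite_W e8T cs8

set_option backward.isDefEq.respectTransparency false in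
theorem n8 : ∀ i j : Fin 8, CoxeterMatrix.E₈ i j ≠ 4 ∧ CoxeterMatrix.E₈ i j ≠ 6 := by decide

/-- the form of `E₈` -/
theorem frm8 : H897.T5Lat.Frm cs8 e8T.isCartan (H897.T5Lat.bf (cartanOf chevE8 8)) :=
  H897.T5Conn.Par.frm (cs := cs8) (h := e8T.isCartan) (i0 := 1) (par := ![2, 1, 3, 1, 3, 4, 5, 6]) (n := 8)
    ⟨by decide +kernel, rfl, by decide +kernel⟩ (fun i j => (n8 i j).1) (fun i j => (n8 i j).2)

/-- **The bound.** -/
theorem cent_le {N : ℕ} {Y : List ℕ} {C : Cert} (hN0 : N ≠ 0) (hN : N.Coprime 3) (hc : chk N Y C = true)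
    {x : ↥(chevE8.group (ZMod 3))} (hx : x ^ N = 1) (hT : TorD e8T x N (vecL N Y)) :
    bnd N Y C ≤ Nat.card ↥(Subgroup.centralizer {x}) := by
  classical
  obtain ⟨z, t, ζ, hζ, hz, htT, hv⟩ := hT
  unfold chk at hc
  simp only [Bool.and_eq_true, decide_eq_true_eq] at hc
  obtain ⟨⟨⟨⟨⟨⟨hY8, hw8⟩, hwY⟩, hwS⟩, htor⟩, hWs⟩, hnd⟩ := hc
  have hkch : CharP (AlgebraicClosure (ZMod 3)) 3 :=
    charP_of_injective_algebraMap (algebraMap (ZMod 3) (AlgebraicClosure (ZMod 3))).injective 3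
  have hlf : LocFin (AlgebraicClosure (ZMod 3)) := locFin_of_isAlgebraic 3 (AlgebraicClosure (ZMod 3))
  have hζ0 : ζ ≠ 0 := hζ.ne_zero hN0
  have hYl : (YZ Y).length = 8 := by unfold YZ; rw [List.length_map, hY8]
  -- the character of `t`
  have hX : ∀ a, cX e8T t a = ζ ^ fz (YZ Y) a := by
    have h1 : IsMC fun a : Fin 8 → ℤ => ζ ^ fz (YZ Y) a := ⟨by
      show ζ ^ fz (YZ Y) 0 = 1
      have : fz (YZ Y) 0 = 0 := by unfold fz; simp
      rw [this, zpow_zero], fun a b => by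
      show ζ ^ fz (YZ Y) (a + b) = _
      rw [fz_add, zpow_add₀ hζ0]⟩
    refine (isMC_cX e8T htT).ext h1 fun i => ?_
    rw [hv, fz_sr, YZ_getD, zpow_natCast]
    unfold vecL
    rw [ZMod.val_natCast]
    exact pow_mod_orderOf' hζ _
  have hX1 : ∀ a, cX e8T t a = 1 ↔ (N : ℤ) ∣ fz (YZ Y) a := fun a => by
    rw [hX, hζ.zpow_eq_one_iff_dvd]
  have hXe : ∀ a b, (N : ℤ) ∣ fz (YZ Y) a - fz (YZ Y) b → cX e8T t a = cX e8T t b := fun a b h => by
    rw [hX, hX]
    obtain ⟨m, hm⟩ := h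
    have h1 : fz (YZ Y) a = fz (YZ Y) b + N * m := by linarith
    rw [h1, zpow_add₀ hζ0, zpow_mul, zpow_natCast, hζ.pow_eq_one, one_zpow, mul_one]
  have hdot : ∀ r ∈ R8, fz (YZ Y) (toR r) = ((dotN r Y : ℕ) : ℤ) := by
    intro r hr
    rw [dotN_eq 8 r Y (len8 r hr)]
    unfold fz toR
    push_cast
    refine Finset.sum_congr rfl fun i _ => ?_
    rw [YZ_getD, mul_comm]
  -- the roots
  have hSL : ∀ r, r ∈ SL N Y ↔ r ∈ R8 ∧ cX e8T t (toR r) = 1 := by
    intro r
    unfold SL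
    rw [List.mem_filter]
    refine and_congr_right fun hr => ?_
    rw [hX1, hdot r hr, Int.natCast_dvd_natCast, Nat.beq_eq]
    exact ⟨Nat.dvd_of_mod_eq_zero, Nat.mod_eq_zero_of_dvd⟩
  have hSt : St e8T cs8 t = toR '' {r | r ∈ SL N Y} := by
    ext a
    constructor
    · rintro ⟨h1, h2⟩
      obtain ⟨r, hr, rfl⟩ := mem_pos_iff.1 h1
      exact ⟨r, (hSL r).2 ⟨hr, h2⟩, rfl⟩
    · rintro ⟨r, hr, rfl⟩
      have h1 := (hSL r).1 hr
      exact ⟨mem_pos_iff.2 ⟨r, h1.1, rfl⟩, h1.2⟩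
  have hSLn : (SL N Y).Nodup := nodupR8.filter _
  have hSLR : ∀ r ∈ SL N Y, r ∈ R8 := fun r hr => ((hSL r).1 hr).1
  have hStc : (St e8T cs8 t).ncard = (SL N Y).length := by rw [hSt]; exact ncard_image _ hSLn hSLR
  -- the twist
  have hwl := okw_spec hw8
  have h31 : (3 : ℕ) ^ 1 = 3 := rfl
  have hw3 : ∀ a, (N : ℤ) ∣ fz (YZ Y) (rep cs8 e8T.isCartan (word C.w) a) - 3 * fz (YZ Y) a := by
    intro a
    rw [← fz_actW C.w hwl hYl]
    refine fz_dvd (fun i => ?_) a
    exact Int.dvd_of_emod_eq_zero (of_decide_eq_true (all_range hwY i))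
  have hwt : ∀ a, cX e8T t (rep cs8 e8T.isCartan (word C.w) a) = cX e8T t a ^ 3 ^ 1 := by
    intro a
    rw [h31, hX, hX]
    obtain ⟨m, hm⟩ := hw3 a
    have h1 : fz (YZ Y) (rep cs8 e8T.isCartan (word C.w) a) = fz (YZ Y) a * 3 + N * m := by linarith
    rw [h1, zpow_add₀ hζ0, zpow_mul, zpow_mul, zpow_natCast ζ N, hζ.pow_eq_one, one_zpow, mul_one]
    exact zpow_ofNat _ 3
  have hwSt : ∀ a ∈ St e8T cs8 t, rep cs8 e8T.isCartan (word C.w) a ∈ St e8T cs8 t := by
    intro a ha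
    have ha' := ha
    rw [hSt] at ha'
    obtain ⟨r, hr, rfl⟩ := ha'
    have h1 : IsRoot cs8 e8T.isCartan (rep cs8 e8T.isCartan (word C.w) (toR r)) := ha.1.1.act _
    rw [List.all_eq_true] at hwS
    have h2 : 0 < dotZ r (actW C.w ones) := of_decide_eq_true (hwS r hr)
    rw [dotZ_fz (hSLR r hr), fz_actW C.w hwl rfl, fz_ones] at h2
    refine ⟨⟨h1, ?_⟩, by rw [hwt, ha.2, one_pow]⟩
    rcases h1.pos_or_neg with h3 | h3
    · exact h3
    · exfalso
      have h6 := RGD.ht_pos h1.neg (neg_nonneg.2 h3)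
      have h7 : ht (-(rep cs8 e8T.isCartan (word C.w) (toR r))) = - ht (rep cs8 e8T.isCartan (word C.w) (toR r)) := by
        unfold ht; simp
      omega
  -- the torus
  have htor' : ∀ i : Fin 8, (C.U.getD i []).length = 8 ∧ C.d.getD i 0 % 3 ≠ 0 ∧
      (∀ m : Fin 8, ((C.d.getD i 0 : ℕ) : ℤ) ∣ (actW C.w (C.U.getD i [])).getD m 0 - 3 * (C.U.getD i []).getD m 0) ∧
      ∀ j : Fin 8, ∑ m : Fin 8, (C.U.getD i []).getD m 0 * (C.f.getD j []).getD m 0 = if i = j then 1 else 0 := by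
    intro i
    have h1 := all_range htor i
    simp only [Bool.and_eq_true, decide_eq_true_eq] at h1
    obtain ⟨⟨⟨h1, h2⟩, h3⟩, h4⟩ := h1
    refine ⟨h1, h2, fun m => Int.dvd_of_emod_eq_zero (of_decide_eq_true (all_range h3 m)), fun j => ?_⟩
    have h5 := of_decide_eq_true (all_range h4 j)
    rw [h5]
    by_cases hij : i = j
    · subst hij; simp
    · rw [if_neg hij, if_neg fun h => hij (Fin.ext h)]
  -- the elements of `W`
  rw [List.all_eq_true] at hWs
  have hWs' : ∀ ω ∈ C.Ws, (∀ i ∈ ω, i < 8) ∧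
      (∀ a, (N : ℤ) ∣ fz (YZ Y) (rep cs8 e8T.isCartan (word ω) a) - fz (YZ Y) a) ∧ word ω * word C.w = word C.w * word ω := by
    intro ω hω
    have h1 := hWs ω hω
    simp only [Bool.and_eq_true, decide_eq_true_eq] at h1
    obtain ⟨⟨h1, h2⟩, h3⟩ := h1
    have hωl := okw_spec h1
    refine ⟨hωl, fun a => ?_, ?_⟩
    · rw [← fz_actW ω hωl hYl]
      have h4 := fz_dvd (m := (N : ℤ)) (q := 1) (c := actW ω (YZ Y)) (c' := YZ Y) (fun i => by
        rw [one_mul]
        exact Int.dvd_of_emod_eq_zero (of_decide_eq_true (all_range h2 i))) a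
      rwa [one_mul] at h4
    · rw [← word_append, ← word_append]
      have e1 : ∀ i ∈ ω ++ C.w, i < 8 := fun i hi => (List.mem_append.1 hi).elim (hωl i) (hwl i)
      have e2 : ∀ i ∈ C.w ++ ω, i < 8 := fun i hi => (List.mem_append.1 hi).elim (hwl i) (hωl i)
      refine eq_of_ht fun a => ?_
      rw [← fz_ones, ← fz_ones, ← fz_actW _ e1 rfl, ← fz_actW _ e2 rfl, h3]
  have hwnd : (C.Ws.map word).Nodup := by
    rw [List.nodup_map_iff_inj_on]
    · intro ω hω ω' hω' h
      have h1 : actW ω ones = actW ω' ones := by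
        have e1 : ∀ x, fz (actW ω ones) x = fz (actW ω' ones) x := fun x => by
          rw [fz_actW ω (hWs' ω hω).1 rfl, fz_actW ω' (hWs' ω' hω').1 rfl, h]
        refine List.ext_getElem (by rw [actW_length ω (hWs' ω hω).1 rfl, actW_length ω' (hWs' ω' hω').1 rfl]) ?_
        intro i h1 h2
        have h3 : i < 8 := by rw [actW_length ω (hWs' ω hω).1 rfl] at h1; exact h1
        have h4 := e1 (sr ⟨i, h3⟩)
        rw [fz_sr, fz_sr] at h4
        rwa [List.getD_eq_getElem _ _ h1, List.getD_eq_getElem _ _ h2] at h4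
      exact (List.nodup_map_iff_inj_on (List.Nodup.of_map _ hnd)).1 hnd ω hω ω' hω' h1
    · exact List.Nodup.of_map _ hnd
  have key := cent_bound (F0 := ZMod 3) e8T cs8 hlf frm8 (algebraMap (ZMod 3) (AlgebraicClosure (ZMod 3))) (p := 3)
    (n := 1) (by rw [Nat.card_eq_fintype_card, ZMod.card]; rfl) invC_E8 one_pos hN0 hN hx hz htT (word C.w) hwt hwSt
    (fun i => C.d.getD i 0) (fun i => by
      intro h0
      exact (htor' i).2.1 (by rw [h0])) (fun i => by
      rw [Nat.coprime_comm]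
      exact (Nat.Prime.coprime_iff_not_dvd Nat.prime_three).2 fun h => (htor' i).2.1 (Nat.mod_eq_zero_of_dvd h))
    (fun i m => (C.U.getD i []).getD m 0) (fun j m => (C.f.getD j []).getD m 0) (fun i j => (htor' i).2.2.2 j)
    (fun i m => by
      have h1 := (htor' i).2.2.1 m
      have h2 : ∑ j : Fin 8, (C.U.getD i []).getD j 0 * (rep cs8 e8T.isCartan (word C.w) (sr m) -
          ((3 ^ 1 : ℕ) : ℤ) • (sr m : Fin 8 → ℤ)) j = fz (C.U.getD i []) (rep cs8 e8T.isCartan (word C.w) (sr m)) -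
            3 * fz (C.U.getD i []) (sr m) := by
        rw [← fz_smul, ← fz_sub]
        rfl
      rw [h2, ← fz_actW C.w hwl (htor' i).1, fz_sr, fz_sr]
      exact h1) (C.Ws.map word).toFinset (by
      intro w' hw'
      rw [List.mem_toFinset, List.mem_map] at hw'
      obtain ⟨ω, hω, rfl⟩ := hw'
      exact (hWs' ω hω).2.2) (by
      intro w' hw' a
      rw [List.mem_toFinset, List.mem_map] at hw'
      obtain ⟨ω, hω, rfl⟩ := hw'
      exact hXe _ _ ((hWs' ω hω).2.1 a))
  refine le_trans (le_of_eq ?_) key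
  rw [List.sum_toFinset _ hwnd, List.map_map]
  unfold bnd
  congr 1
  refine List.map_congr_left fun ω hω => ?_
  simp only [Function.comp_apply]
  have h1 : (St e8T cs8 t ∩ NW cs8 e8T.isCartan (word ω)).ncard =
      ((SL N Y).filter fun r => decide (dotZ r (actW ω ones) < 0)).length := by
    have h2 : St e8T cs8 t ∩ NW cs8 e8T.isCartan (word ω) =
        toR '' {r | r ∈ (SL N Y).filter fun r => decide (dotZ r (actW ω ones) < 0)} := by
      rw [hSt]
      have hiff : ∀ r ∈ SL N Y, (toR r ∈ NW cs8 e8T.isCartan (word ω) ↔ dotZ r (actW ω ones) < 0) := by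
        intro r hr
        have hpos := mem_pos_iff.2 ⟨r, hSLR r hr, rfl⟩
        rw [dotZ_fz (hSLR r hr), fz_actW ω (hWs' ω hω).1 rfl, fz_ones]
        have h1 : IsRoot cs8 e8T.isCartan (rep cs8 e8T.isCartan (word ω) (toR r)) := hpos.1.act _
        have h7 : ht (-(rep cs8 e8T.isCartan (word ω) (toR r))) = - ht (rep cs8 e8T.isCartan (word ω) (toR r)) := by
          unfold ht; simp
        constructor
        · rintro ⟨-, -, h3⟩
          have h6 := RGD.ht_pos h1.neg (neg_nonneg.2 h3)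
          omega
        · intro h3
          refine ⟨hpos.1, hpos.2, ?_⟩
          rcases h1.pos_or_neg with h4 | h4
          · exfalso
            have h6 := RGD.ht_pos h1 h4
            omega
          · exact h4
      ext a
      constructor
      · rintro ⟨⟨r, hr, rfl⟩, h3⟩
        refine ⟨r, ?_, rfl⟩
        rw [Set.mem_ofPred_eq, List.mem_filter]
        exact ⟨hr, decide_eq_true ((hiff r hr).1 h3)⟩
      · rintro ⟨r, hr, rfl⟩
        rw [Set.mem_ofPred_eq, List.mem_filter] at hr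
        exact ⟨⟨r, hr.1, rfl⟩, (hiff r hr.1).2 (of_decide_eq_true hr.2)⟩
    rw [h2]
    exact ncard_image _ (hSLn.filter _) fun r hr => hSLR r (List.mem_filter.1 hr).1
  rw [h1, hStc, h31]

end Cfsg.Agent.H942.CB
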