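import Mathlib
import Cfsg.Agent.H942.CB.E8Data
import Cfsg.Agent.H942.CB.Spec

/-!
# Elements of order 4 and 8 of `E₈(3)`: Brauer character values and lower bounds for the centralisers
-/

set_option autoImplicit false
set_option linter.unusedSectionVars false
set_option maxRecDepth 100000

namespace Cfsg.Agent.H942.CB

open Cfsg Cfsg.Lie Cfsg.Lie.ChevalleyDatum
open Cfsg.Agent.ChevalleyStructure Cfsg.Agent.ChevalleyStructure.CoxeterGeomTypes
open Cfsg.Agent.H942.E8Tab Cfsg.Agent.H942.E8Alc Cfsg.Agent.H942.ValsChar Cfsg.Agent.H942.E8Val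
open Cfsg.Agent.H944.RootVals Cfsg.Agent.H944.Tab Cfsg.Agent.H944.Kac
open Cfsg.Agent.H657 IsLocalRing Module

/-- the average of the powers of a primitive 4-th root of unity over the units -/
def chi4 (a : ZMod 4) : ℤ := if a = 0 then 1 else if a = 2 then -1 else 0

theorem chi4_neg : ∀ a : ZMod 4, chi4 (-a) = chi4 a := by decide

theorem sum4 {m : Multiset (ZMod 4)} (hn : m = m.map (fun a => -a)) {ξ : ℂ} (hξ : IsPrimitiveRoot ξ 4) :
    (m.map fun a => ξ ^ a.val).sum = ((m.map chi4).sum : ℤ) := by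
  have h2 : ξ ^ 2 = -1 := by
    have h0 : ξ ^ 4 = 1 := hξ.pow_eq_one
    have h1 : (ξ ^ 2 - 1) * (ξ ^ 2 + 1) = 0 := by linear_combination h0
    rcases mul_eq_zero.1 h1 with h | h
    · exfalso
      have := hξ.dvd_of_pow_eq_one 2 (sub_eq_zero.1 h)
      omega
    · linear_combination h
  have hn' : m = m.map (fun a => (3 : ZMod 4) * a) := by
    conv_lhs => rw [hn]
    refine Multiset.map_congr rfl fun a _ => ?_
    exact (by decide : ∀ a : ZMod 4, -a = 3 * a) a
  have key := sum_avg [1, 3] (m := m) (by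
    intro u hu
    simp only [List.mem_cons, List.not_mem_nil, or_false] at hu
    rcases hu with rfl | rfl
    · simp
    · exact hn') (fun a => ξ ^ a.val)
  have hpt : ∀ a : ZMod 4, ([1, 3].map fun u : ZMod 4 => ξ ^ (u * a).val).sum = 2 * ((chi4 a : ℤ) : ℂ) := by
    intro a
    have h3 : ξ ^ 3 = -ξ := by rw [show 3 = 2 + 1 from rfl, pow_add, h2]; ring
    fin_cases a
    · show ([1, 3].map fun u : ZMod 4 => ξ ^ (u * 0).val).sum = 2 * ((1 : ℤ) : ℂ)
      simp
      norm_num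
    · show ξ ^ 1 + (ξ ^ 3 + 0) = 2 * ((0 : ℤ) : ℂ)
      rw [h3]; push_cast; ring
    · show ξ ^ 2 + (ξ ^ 2 + 0) = 2 * ((-1 : ℤ) : ℂ)
      rw [h2]; push_cast; ring
    · show ξ ^ 3 + (ξ ^ 1 + 0) = 2 * ((0 : ℤ) : ℂ)
      rw [h3]; push_cast; ring
  simp only [hpt] at key
  have h9 : (m.map fun a => 2 * ((chi4 a : ℤ) : ℂ)).sum = 2 * (((m.map chi4).sum : ℤ) : ℂ) := by
    rw [Multiset.sum_map_mul_left]
    congr 1
    have h11 := map_multiset_sum (Int.castRingHom ℂ) (m.map chi4)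
    rw [Multiset.map_map] at h11
    exact h11.symm
  rw [h9] at key
  have h10 : (([1, 3] : List (ZMod 4)).length : ℂ) = 2 := by simp
  rw [h10] at key
  exact mul_left_cancel₀ (by norm_num) key

/-- the value of the Brauer character, for elements of order dividing 4 -/
def t4 (d : ℕ) (Y : List ℕ) : ℤ := 8 + 2 * ((cnt 4 d 0 Y : ℤ) - (cnt 4 d 2 Y : ℤ))

theorem chi4_nat : ∀ n : ℕ, chi4 (n : ZMod 4) =
    ((bif Nat.beq (n % 4) 0 then 1 else 0 : ℕ) : ℤ) - ((bif Nat.beq (n % 4) 2 then 1 else 0 : ℕ) : ℤ) := by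
  intro n
  have h1 : (n : ZMod 4) = ((n % 4 : ℕ) : ZMod 4) := by rw [ZMod.natCast_mod]
  rw [h1]
  have h2 : n % 4 < 4 := Nat.mod_lt _ (by norm_num)
  generalize n % 4 = k at h2
  interval_cases k <;> decide

theorem sum_chi4 (d : ℕ) (Y : List ℕ) :
    8 + ((ms chevE8 8 (vecL 4 Y)).map fun a => chi4 ((d : ZMod 4) * a)).sum = t4 d Y := by
  rw [sum_tab, t4, cnt, cnt, sumH_eq, sumH_eq, list_sum_sub]
  congr 1
  rw [← List.sum_map_mul_left]
  congr 1
  refine List.map_congr_left fun r _ => ?_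
  rw [mul_neg, chi4_neg, ← Nat.cast_mul, chi4_nat]
  ring

theorem bc4 {V : ValuationSubring ℂ} [CharP (ResidueField V) 3] {G : Type*} [Group G]
    {F : G →* ↥(chevE8.group (ZMod 3))} {g : G} {Y : List ℕ} {ξ : ℂ} (h : Spec V F g 4 Y ξ) (d : ℕ) :
    bc 3 (adj V F) (g ^ d) = (t4 d Y : ℂ) := by
  rw [h.bc, ← sum_chi4 d Y]
  have h1 : (ms chevE8 8 (vecL 4 Y)).map (fun a => ξ ^ (((d : ZMod 4) * a).val)) =
      ((ms chevE8 8 (vecL 4 Y)).map fun a => (d : ZMod 4) * a).map fun a => ξ ^ a.val := by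
    rw [Multiset.map_map]; rfl
  have hn : (ms chevE8 8 (vecL 4 Y)) = (ms chevE8 8 (vecL 4 Y)).map (fun a => (-1 : ZMod 4) * a) := by
    conv_lhs => rw [ms_neg]
    refine Multiset.map_congr rfl fun a _ => ?_
    rw [neg_one_mul]
  have h3 := map_mul_comm hn (d : ZMod 4)
  have h3' : ((ms chevE8 8 (vecL 4 Y)).map fun a => (d : ZMod 4) * a) =
      ((ms chevE8 8 (vecL 4 Y)).map fun a => (d : ZMod 4) * a).map (fun a => -a) := by
    conv_lhs => rw [h3]
    refine Multiset.map_congr rfl fun a _ => ?_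
    rw [neg_one_mul]
  rw [h1, sum4 h3' h.prim, Multiset.map_map]
  push_cast
  rfl

/-- the alcove points of elements of order 4 with the values of the Brauer character at `g`, `g ^ 2` -/
def L4 : List (List ℕ × ℤ × ℤ) :=
  [([0, 0, 0, 0, 0, 1, 0, 0], 0, -8), ([0, 0, 1, 0, 0, 0, 0, 0], -4, 24), ([0, 1, 0, 0, 0, 0, 0, 0], 8, -8),
   ([1, 0, 0, 0, 0, 0, 0, 1], 4, 24), ([0, 0, 0, 0, 0, 0, 1, 0], 28, 24), ([1, 0, 0, 0, 0, 0, 0, 0], 64, -8),
   ([0, 0, 0, 0, 0, 0, 0, 1], 132, 24)]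

theorem check4 : allAlc th8 4 (fun Y => bif invB 4 3 R8 Y then decide ((Y, t4 1 Y, t4 2 Y) ∈ L4 ∨ t4 2 Y = 248)
    else true) = true := by
  decide +kernel

theorem check8' : allAlc th8 8 (fun Y => bif invB 8 3 R8 Y then
    decide ((t8 2 Y, t8 4 Y) ≠ (0, -8) ∨ Y = [0, 0, 0, 1, 0, 0, 0, 1] ∨ Y = [0, 0, 1, 0, 0, 0, 1, 0] ∨
      Y = [1, 0, 0, 0, 0, 1, 0, 0]) else true) = true := by
  decide +kernel

theorem sum_eq_card_iff4 (m : Multiset (ZMod 4)) (d : ZMod 4) :
    (m.map fun a => chi4 (d * a)).sum = (m.card : ℤ) ↔ ∀ a ∈ m, d * a = 0 := by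
  have hle : ∀ a : ZMod 4, chi4 a ≤ 1 := by decide
  have heq : ∀ a : ZMod 4, chi4 a = 1 → a = 0 := by decide
  have hsum : ∀ m : Multiset (ZMod 4), (m.map fun a => chi4 (d * a)).sum ≤ (m.card : ℤ) := by
    intro m
    induction m using Multiset.induction_on with
    | empty => simp
    | cons a s ih =>
      rw [Multiset.map_cons, Multiset.sum_cons, Multiset.card_cons]
      push_cast
      have := hle (d * a)
      omega
  induction m using Multiset.induction_on with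
  | empty => simp
  | cons a s ih =>
    rw [Multiset.map_cons, Multiset.sum_cons, Multiset.card_cons]
    have h1 := hle (d * a)
    have h2 := hsum s
    constructor
    · intro h b hb
      push_cast at h
      rcases Multiset.mem_cons.1 hb with rfl | hb
      · exact heq _ (by omega)
      · exact ih.1 (by omega) b hb
    · intro h
      have h3 := ih.2 fun b hb => h b (Multiset.mem_cons_of_mem hb)
      rw [h3, h a (Multiset.mem_cons_self a s)]
      push_cast
      have : chi4 0 = 1 := by decide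
      omega

theorem ord4 {V : ValuationSubring ℂ} [CharP (ResidueField V) 3] {G : Type*} [Group G]
    {F : G →* ↥(chevE8.group (ZMod 3))} {g : G} {Y : List ℕ} {ξ : ℂ} (h : Spec V F g 4 Y ξ) (d : ℕ) :
    F (g ^ d) = 1 ↔ t4 d Y = 248 := by
  rw [h.ord, ← sum_eq_card_iff4, card_ms, ← sum_chi4 d Y]
  constructor
  · intro h
    rw [h]
    rfl
  · intro h
    omega

/-- values of the Brauer character at `g`, `g ^ 2` for `g` of order 4, and a lower bound for the centraliser -/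
def B4 : List (ℤ × ℤ × ℕ) :=
  [(0, -8, 21318698642497254476121314304), (-4, 24, 9646343571960309421919444355072),
   (8, -8, 2143631904880068760426543190016), (4, 24, 195338457332196265793868748190208),
   (28, 24, 415243460412318862759037605627809318912), (64, -8, 12259855546943508263529205787358256236217344),
   (132, 24, 670730500422461620424298545004801061869693815027247849761960448)]

theorem t8Y1 : t8 1 [0, 0, 0, 1, 0, 0, 0, 1] = 0 := by decide +kernel
theorem t8Y2 : t8 1 [0, 0, 1, 0, 0, 0, 1, 0] = 4 := by decide +kernel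
theorem t8Y3 : t8 1 [1, 0, 0, 0, 0, 1, 0, 0] = 16 := by decide +kernel

/-- **Elements of order 4.** -/
theorem val4T (V : ValuationSubring ℂ) [CharP (ResidueField V) 3] {G : Type*} [Group G]
    (F : G →* ↥(chevE8.group (ZMod 3))) {g : G} (hg : g ^ 4 = 1) (hne : F (g ^ 2) ≠ 1) :
    ∃ (t₁ t₂ : ℤ) (b : ℕ), (t₁, t₂, b) ∈ B4 ∧ bc 3 (adj V F) g = t₁ ∧ bc 3 (adj V F) (g ^ 2) = t₂ ∧
      b ≤ Nat.card ↥(Subgroup.centralizer {F g}) := by
  obtain ⟨Y, ξ, h, hT⟩ := exists_specT (V := V) F (N := 4) (by norm_num) (by norm_num) hg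
  have h1 := allAlc_spec th8 4 _ (by decide) check4 Y h.len h.alc
  have h2 : invB 4 3 R8 Y = true := invB_of (by norm_num) tab8 len8 h.frob
  rw [h2, cond_true, decide_eq_true_iff] at h1
  have h3 : ¬ t4 2 Y = 248 := fun h4 => hne ((ord4 h 2).2 h4)
  have h1 := h1.resolve_right h3
  have e1 : bc 3 (adj V F) g = (t4 1 Y : ℂ) := by
    have := bc4 h 1
    rwa [pow_one] at this
  have e2 := bc4 h 2
  have hx : (F g) ^ 4 = 1 := by rw [← map_pow, hg, map_one]
  unfold L4 at h1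
  simp only [List.mem_cons, List.not_mem_nil, or_false, Prod.mk.injEq] at h1
  rcases h1 with ⟨h4, h5, h6⟩ | ⟨h4, h5, h6⟩ | ⟨h4, h5, h6⟩ | ⟨h4, h5, h6⟩ | ⟨h4, h5, h6⟩ | ⟨h4, h5, h6⟩ | ⟨h4, h5, h6⟩
  · subst h4
    have hb := cent_le (by norm_num) (by norm_num) chkA3D5 hx hT
    rw [bndA3D5] at hb
    exact ⟨_, _, _, by rw [h5, h6]; simp [B4], e1, e2, hb⟩
  · subst h4
    have hb := cent_le (by norm_num) (by norm_num) chkA7A1 hx hT
    rw [bndA7A1] at hb
    exact ⟨_, _, _, by rw [h5, h6]; simp [B4], e1, e2, hb⟩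
  · subst h4
    have hb := cent_le (by norm_num) (by norm_num) chkA7 hx hT
    rw [bndA7] at hb
    exact ⟨_, _, _, by rw [h5, h6]; simp [B4], e1, e2, hb⟩
  · subst h4
    have hb := cent_le (by norm_num) (by norm_num) chkD6A1 hx hT
    rw [bndD6A1] at hb
    exact ⟨_, _, _, by rw [h5, h6]; simp [B4], e1, e2, hb⟩
  · subst h4
    have hb := cent_le (by norm_num) (by norm_num) chkA1E6 hx hT
    rw [bndA1E6] at hb
    exact ⟨_, _, _, by rw [h5, h6]; simp [B4], e1, e2, hb⟩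
  · subst h4
    have hb := cent_le (by norm_num) (by norm_num) chkD7 hx hT
    rw [bndD7] at hb
    exact ⟨_, _, _, by rw [h5, h6]; simp [B4], e1, e2, hb⟩
  · subst h4
    have hb := cent_le (by norm_num) (by norm_num) chkE7 hx hT
    rw [bndE7] at hb
    exact ⟨_, _, _, by rw [h5, h6]; simp [B4], e1, e2, hb⟩

/-- values of the Brauer character at `g` of order 8 with the values `0`, `-8` at `g ^ 2`, `g ^ 4`, and a lower bound
for the centraliser -/
def B8 : List (ℤ × ℕ) := [(0, 211293005414400), (4, 1156831381426176), (16, 421665038529841152)]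

theorem mod_odd {d : ℕ} (hd : ¬ 2 ∣ d) (t : ℕ) :
    ((d * t) % 8 = 0 ↔ (1 * t) % 8 = 0) ∧ ((d * t) % 8 = 4 ↔ (1 * t) % 8 = 4) := by
  rw [Nat.mul_mod, Nat.mul_mod 1]
  have h1 : d % 8 < 8 := Nat.mod_lt _ (by norm_num)
  have h2 : t % 8 < 8 := Nat.mod_lt _ (by norm_num)
  have h3 : d % 8 % 2 = 1 := by omega
  generalize d % 8 = a at *
  generalize t % 8 = b at *
  interval_cases a <;> interval_cases b <;> simp_all

theorem beq_iff (a b c : ℕ) (h : a = c ↔ b = c) : Nat.beq a c = Nat.beq b c := by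
  rw [Bool.eq_iff_iff]
  exact ⟨fun e => by rw [h.1 (Nat.eq_of_beq_eq_true e)]; exact Nat.beq_refl c,
    fun e => by rw [h.2 (Nat.eq_of_beq_eq_true e)]; exact Nat.beq_refl c⟩

theorem t8_odd {d : ℕ} (hd : ¬ 2 ∣ d) (Y : List ℕ) : t8 d Y = t8 1 Y := by
  have h0 : ∀ t : ℕ, Nat.beq ((d * t) % 8) 0 = Nat.beq ((1 * t) % 8) 0 := fun t => beq_iff _ _ _ (mod_odd hd t).1
  have h4 : ∀ t : ℕ, Nat.beq ((d * t) % 8) 4 = Nat.beq ((1 * t) % 8) 4 := fun t => beq_iff _ _ _ (mod_odd hd t).2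
  unfold t8 cnt
  simp only [h0, h4]

/-- **Elements of order 8.** -/
theorem val8T (V : ValuationSubring ℂ) [CharP (ResidueField V) 3] {G : Type*} [Group G]
    (F : G →* ↥(chevE8.group (ZMod 3))) {g : G} (hg : g ^ 8 = 1) (h2 : bc 3 (adj V F) (g ^ 2) = 0)
    (h4 : bc 3 (adj V F) (g ^ 4) = -8) :
    ∃ (t : ℤ) (b : ℕ), (t, b) ∈ B8 ∧ bc 3 (adj V F) g = t ∧ b ≤ Nat.card ↥(Subgroup.centralizer {F g}) ∧
      ∀ d : ℕ, ¬ 2 ∣ d → bc 3 (adj V F) (g ^ d) = t := by
  obtain ⟨Y, ξ, h, hT⟩ := exists_specT (V := V) F (N := 8) (by norm_num) (by norm_num) hg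
  have h1 := allAlc_spec th8 8 _ (by decide) check8' Y h.len h.alc
  have h2' : invB 8 3 R8 Y = true := invB_of (by norm_num) tab8 len8 h.frob
  rw [h2', cond_true, decide_eq_true_iff] at h1
  have e1 : bc 3 (adj V F) g = (t8 1 Y : ℂ) := by
    have := bc8 h 1
    rwa [pow_one] at this
  have e2 := bc8 h 2
  have e4 := bc8 h 4
  have eo : ∀ d : ℕ, ¬ 2 ∣ d → bc 3 (adj V F) (g ^ d) = (t8 1 Y : ℂ) := fun d hd => by
    rw [bc8 h d, t8_odd hd]
  rw [h2] at e2
  rw [h4] at e4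
  have e2' : t8 2 Y = 0 := by exact_mod_cast e2.symm
  have e4' : t8 4 Y = -8 := by exact_mod_cast e4.symm
  rw [e2', e4'] at h1
  have h1 := h1.resolve_left (fun h => h rfl)
  have hx : (F g) ^ 8 = 1 := by rw [← map_pow, hg, map_one]
  rcases h1 with h4 | h4 | h4
  · subst h4
    have hb := cent_le (by norm_num) (by norm_num) chkY1 hx hT
    rw [bndY1] at hb
    exact ⟨_, _, by rw [t8Y1]; simp [B8], e1, hb, eo⟩
  · subst h4
    have hb := cent_le (by norm_num) (by norm_num) chkY2 hx hT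
    rw [bndY2] at hb
    exact ⟨_, _, by rw [t8Y2]; simp [B8], e1, hb, eo⟩
  · subst h4
    have hb := cent_le (by norm_num) (by norm_num) chkY3 hx hT
    rw [bndY3] at hb
    exact ⟨_, _, by rw [t8Y3]; simp [B8], e1, hb, eo⟩

end Cfsg.Agent.H942.CB
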